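import Cfsg.Agent.Lib.PcIso.S8O6
import Mathlib

/-!
# The Sylow `2`-subgroups of `A₈` and `PSp₄(3)`: data
-/

set_option autoImplicit false

namespace Cfsg.Agent.Lib.PcIso.A8PSp

open Cfsg.Agent.Lib.PcIso Cfsg.Agent.Lib.PcIso.S8O6

/-- The permutations. -/
def pA : Fin 6 → Equiv.Perm (Fin 8) := ![
  mkP ![0,1,3,2,5,4,6,7] ![0,1,3,2,5,4,6,7],
  mkP ![1,0,3,2,4,5,6,7] ![1,0,3,2,4,5,6,7],
  mkP ![0,1,3,2,4,5,7,6] ![0,1,3,2,4,5,7,6],
  mkP ![0,1,2,3,7,6,5,4] ![0,1,2,3,7,6,5,4],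
  mkP ![2,3,0,1,4,5,6,7] ![2,3,0,1,4,5,6,7],
  mkP ![7,6,5,4,0,1,2,3] ![4,5,6,7,3,2,1,0]]

/-- Squares. -/
def w2A : Fin 6 → List (Fin 6) := ![[], [], [], [], [], [1,3,4]]

/-- Conjugates. -/
def wcA : Fin 6 → Fin 6 → List (Fin 6) := ![
  ![[], [], [], [], [], []],
  ![[0], [], [], [], [], []],
  ![[0], [1], [], [], [], []],
  ![[2], [1], [0], [], [], []],
  ![[0,1], [1], [1,2], [3], [], []],
  ![[0,1], [0,2], [0], [1,4], [0,2,3], []]]

/-- The symplectic matrices. -/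
def tblS : Fin 6 → Fin 4 → Fin 4 → ZMod 3 := ![
  ![![1,1,1,1], ![0,1,1,0], ![0,1,2,0], ![1,0,2,2]],
  ![![1,2,1,2], ![0,1,2,0], ![0,2,2,0], ![2,0,1,2]],
  ![![1,0,1,0], ![0,0,0,2], ![1,0,2,0], ![0,1,0,0]],
  ![![1,2,1,2], ![1,1,2,2], ![2,0,2,2], ![0,1,1,2]],
  ![![1,1,2,1], ![2,0,1,0], ![1,0,2,1], ![0,2,2,0]],
  ![![0,1,2,0], ![1,0,0,2], ![0,2,1,1], ![1,0,1,2]]]

/-- The numbering of the index type. -/
def toI4 : Fin 2 ⊕ Fin 2 → Fin 4 :=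
  Sum.elim (fun i => ⟨i, by omega⟩) (fun i => ⟨i + 2, by omega⟩)

/-- The matrix with the given table. -/
def matS (t : Fin 4 → Fin 4 → ZMod 3) : Matrix (Fin 2 ⊕ Fin 2) (Fin 2 ⊕ Fin 2) (ZMod 3) :=
  Matrix.of fun i j => t (toI4 i) (toI4 j)

theorem isS : ∀ k : Fin 6, matS (tblS k) * Matrix.J (Fin 2) (ZMod 3) * (matS (tblS k)).transpose =
    Matrix.J (Fin 2) (ZMod 3) := by decide +kernel

/-- The elements of the symplectic group. -/
def sS (k : Fin 6) : Matrix.symplecticGroup (Fin 2) (ZMod 3) :=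
  ⟨matS (tblS k), SymplecticGroup.mem_iff.mpr (isS k)⟩

theorem rel2Y : ∀ k : Fin 6, (sS k * sS k).val = ((w2A k).map sS).prod.val ∨
    (sS k * sS k).val = - ((w2A k).map sS).prod.val := by decide +kernel

theorem relcY : ∀ k j : Fin 6, j < k → (sS k * sS j).val = (((wcA k j).map sS).prod * sS k).val ∨
    (sS k * sS j).val = - (((wcA k j).map sS).prod * sS k).val := by decide +kernel

theorem rel2X : ∀ k : Fin 6, pA k * pA k = ((w2A k).map pA).prod := by decide +kernel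

theorem relcX : ∀ k j : Fin 6, j < k → pA k * pA j = ((wcA k j).map pA).prod * pA k := by decide +kernel

theorem hw2 : ∀ k : Fin 6, ∀ i ∈ w2A k, i < k := by decide +kernel

theorem hwc : ∀ k j : Fin 6, j < k → ∀ i ∈ wcA k j, i < k := by decide +kernel

theorem wordX : ∀ m, m < 2 ^ 6 → ∀ m', m' < m → word pA m ≠ word pA m' := by decide +kernel

theorem wordY' : ∀ m, m < 2 ^ 6 → (m = 0 ∨ ((word sS m).val ≠ 1 ∧ (word sS m).val ≠ -1)) := by decide +kernel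

theorem evenA : ∀ k : Fin 6, Equiv.Perm.sign (pA k) = 1 := by decide +kernel

end Cfsg.Agent.Lib.PcIso.A8PSp
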