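import Cfsg.Agent.Lib.H1903.Rel
import Mathlib

/-!
# Isomorphisms of `2`-groups from power-conjugate relations

Two families of elements which satisfy the same power-conjugate relations generate isomorphic groups as
soon as the normal words are distinct in one of them and nontrivial in the other.
-/

set_option autoImplicit false

namespace Cfsg.Agent.Lib.PcIso

open Cfsg.Agent.Lib.H1903

section basics

variable {Q : Type*} [Group Q]

/-- The normal word with exponents the bits of `m`. -/
def word {n : ℕ} (g : Fin n → Q) (m : ℕ) : Q :=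
  ((List.finRange n).map (fun i : Fin n => if m.testBit (i : ℕ) then g i else 1)).prod

lemma map_word {X : Type*} [Group X] (f : Q →* X) {n : ℕ} (g : Fin n → Q) (m : ℕ) :
    f (word g m) = word (fun i => f (g i)) m := by
  simp only [word, map_list_prod, List.map_map]
  congr 1
  apply List.map_congr_left
  intro i _
  by_cases h : m.testBit i <;> simp [h]

lemma word_zero {n : ℕ} (g : Fin n → Q) : word g 0 = 1 := by
  simp [word]

/-- The chain of subgroups. -/
def chainT {n : ℕ} (g : Fin n → Q) (k : ℕ) : Subgroup Q := Subgroup.closure (g '' {i | (i : ℕ) < k})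

lemma mem_chainT {n : ℕ} (g : Fin n → Q) {k : ℕ} {i : Fin n} (hi : (i : ℕ) < k) : g i ∈ chainT g k :=
  Subgroup.subset_closure ⟨i, hi, rfl⟩

lemma prod_mem_chainT {n : ℕ} (g : Fin n → Q) {k : ℕ} (w : List (Fin n))
    (hw : ∀ i ∈ w, (i : ℕ) < k) : (w.map g).prod ∈ chainT g k := by
  apply Subgroup.list_prod_mem
  intro x hx
  obtain ⟨i, hi, rfl⟩ := List.mem_map.mp hx
  exact mem_chainT g (hw i hi)

lemma chainT_succ {n : ℕ} (g : Fin n → Q) {k : ℕ} (hk : k < n) :
    chainT g (k + 1) = chainT g k ⊔ Subgroup.zpowers (g ⟨k, hk⟩) := by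
  apply le_antisymm
  · rw [chainT, Subgroup.closure_le]
    rintro _ ⟨i, hi, rfl⟩
    have hi' : (i : ℕ) < k + 1 := hi
    rcases Nat.lt_succ_iff_lt_or_eq.mp hi' with h | h
    · exact (le_sup_left : chainT g k ≤ _) (mem_chainT g h)
    · have : i = ⟨k, hk⟩ := Fin.ext h
      rw [this]
      exact (le_sup_right : Subgroup.zpowers _ ≤ _) (Subgroup.mem_zpowers _)
  · refine sup_le ?_ ?_
    · exact Subgroup.closure_mono (Set.image_mono fun i (hi : (i : ℕ) < k) => Nat.lt_succ_of_lt hi)
    · rw [Subgroup.zpowers_le]
      exact mem_chainT g (Nat.lt_succ_self k)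

/-- The bound from power-conjugate relations. -/
theorem card_le_pc [Finite Q] {n : ℕ} (g : Fin n → Q) (w2 : Fin n → List (Fin n))
    (wc : Fin n → Fin n → List (Fin n))
    (hw2 : ∀ k, ∀ i ∈ w2 k, i < k) (hwc : ∀ k j, j < k → ∀ i ∈ wc k j, i < k)
    (r2 : ∀ k, g k * g k = ((w2 k).map g).prod)
    (rc : ∀ k j, j < k → g k * g j = ((wc k j).map g).prod * g k) :
    Nat.card (Subgroup.closure (Set.range g)) ≤ 2 ^ n := by
  have hall : ∀ k, k ≤ n → Nat.card (chainT g k) ≤ 2 ^ k := by
    intro k
    induction k with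
    | zero =>
      intro _
      have : chainT g 0 = ⊥ := by
        rw [chainT]
        have : g '' {i : Fin n | (i : ℕ) < 0} = ∅ := by simp
        rw [this, Subgroup.closure_empty]
      rw [this]; simp
    | succ k ih =>
      intro hk
      have hk' : k < n := hk
      have ih' := ih hk'.le
      rw [chainT_succ g hk']
      set gk := g ⟨k, hk'⟩ with hgk
      have h1 : gk ^ 2 ∈ chainT g k := by
        rw [pow_two, hgk, r2]
        apply prod_mem_chainT
        intro i hi
        exact hw2 _ i hi
      have h2 : ∀ t ∈ chainT g k, gk * t * gk⁻¹ ∈ chainT g k := by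
        have hle : chainT g k ≤ (chainT g k).comap (MulAut.conj gk).toMonoidHom := by
          rw [chainT, Subgroup.closure_le]
          rintro _ ⟨j, hj, rfl⟩
          have hj' : (j : ℕ) < k := hj
          have hjk : j < (⟨k, hk'⟩ : Fin n) := hj'
          have e := rc ⟨k, hk'⟩ j hjk
          change gk * g j * gk⁻¹ ∈ chainT g k
          rw [hgk, e, mul_inv_cancel_right]
          apply prod_mem_chainT
          intro i hi
          exact hwc _ _ hjk i hi
        intro t ht
        simpa using hle ht
      have := card_sup_le (chainT g k) gk 2 (by norm_num) h1 h2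
      calc Nat.card ↥(chainT g k ⊔ Subgroup.zpowers gk) ≤ 2 * Nat.card (chainT g k) := this
        _ ≤ 2 ^ (k + 1) := by rw [pow_succ]; omega
  have hn := hall n le_rfl
  have e : chainT g n = Subgroup.closure (Set.range g) := by
    rw [chainT]
    congr 1
    ext x
    constructor
    · rintro ⟨i, _, rfl⟩; exact ⟨i, rfl⟩
    · rintro ⟨i, rfl⟩; exact ⟨i, i.2, rfl⟩
  rwa [e] at hn

/-- Words in the generated group. -/
lemma word_mem_closure {n : ℕ} (g : Fin n → Q) (m : ℕ) : word g m ∈ Subgroup.closure (Set.range g) := by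
  apply Subgroup.list_prod_mem
  intro x hx
  obtain ⟨i, _, rfl⟩ := List.mem_map.mp hx
  by_cases h : m.testBit i
  · simp only [h, if_true]
    exact Subgroup.subset_closure ⟨i, rfl⟩
  · simp only [h, if_false]
    exact Subgroup.one_mem _

end basics

/-- Products over lists along homomorphisms. -/
lemma prod_map_hom {A B : Type*} [Group A] [Group B] (f : A →* B) {n : ℕ} (g : Fin n → A) (w : List (Fin n)) :
    (w.map (fun i => f (g i))).prod = f ((w.map g).prod) := by
  rw [map_list_prod, List.map_map]
  rfl

/-- The main theorem on power-conjugate relations. -/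
theorem pc_iso {X Y : Type*} [Group X] [Group Y] [Finite X] [Finite Y] {n : ℕ} (g : Fin n → X)
    (h : Fin n → Y) (w2 : Fin n → List (Fin n)) (wc : Fin n → Fin n → List (Fin n))
    (hw2 : ∀ k, ∀ i ∈ w2 k, i < k) (hwc : ∀ k j, j < k → ∀ i ∈ wc k j, i < k)
    (rX2 : ∀ k, g k * g k = ((w2 k).map g).prod)
    (rXc : ∀ k j, j < k → g k * g j = ((wc k j).map g).prod * g k)
    (rY2 : ∀ k, h k * h k = ((w2 k).map h).prod)
    (rYc : ∀ k j, j < k → h k * h j = ((wc k j).map h).prod * h k)
    (hX : ∀ m, m < 2 ^ n → ∀ m', m' < m → word g m ≠ word g m')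
    (hY : ∀ m, m < 2 ^ n → m ≠ 0 → word h m ≠ 1) :
    Nonempty (Subgroup.closure (Set.range g) ≃* Subgroup.closure (Set.range h)) ∧
      Nat.card (Subgroup.closure (Set.range g)) = 2 ^ n := by
  let p : Fin n → X × Y := fun k => (g k, h k)
  let fst : X × Y →* X := MonoidHom.fst X Y
  let snd : X × Y →* Y := MonoidHom.snd X Y
  have hfst : ∀ w : List (Fin n), fst ((w.map p).prod) = (w.map g).prod := by
    intro w
    rw [map_list_prod, List.map_map]
    rfl
  have hsnd : ∀ w : List (Fin n), snd ((w.map p).prod) = (w.map h).prod := by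
    intro w
    rw [map_list_prod, List.map_map]
    rfl
  have r2 : ∀ k, p k * p k = ((w2 k).map p).prod := by
    intro k
    apply Prod.ext
    · change g k * g k = fst _
      rw [hfst, rX2]
    · change h k * h k = snd _
      rw [hsnd, rY2]
  have rc : ∀ k j, j < k → p k * p j = ((wc k j).map p).prod * p k := by
    intro k j hjk
    apply Prod.ext
    · change g k * g j = fst _ * g k
      rw [hfst, rXc k j hjk]
    · change h k * h j = snd _ * h k
      rw [hsnd, rYc k j hjk]
  set D := Subgroup.closure (Set.range p) with hD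
  have hcard : Nat.card D ≤ 2 ^ n := card_le_pc p w2 wc hw2 hwc r2 rc
  let wD : Fin (2 ^ n) → D := fun m => ⟨word p m, word_mem_closure p m⟩
  have wfst : ∀ m : ℕ, fst (word p m) = word g m := fun m => map_word fst p m
  have wsnd : ∀ m : ℕ, snd (word p m) = word h m := fun m => map_word snd p m
  have wgne : ∀ m m' : Fin (2 ^ n), word g m = word g m' → m = m' := by
    intro m m' he
    rcases lt_trichotomy (m : ℕ) m' with hl | hl | hl
    · exact absurd he.symm (hX _ m'.2 _ hl)
    · exact Fin.ext hl
    · exact absurd he (hX _ m.2 _ hl)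
  have wDinj : Function.Injective wD := by
    intro m m' he
    apply wgne
    have := congrArg (fun d : D => fst d.1) he
    simpa only [wD, wfst] using this
  have wDbij : Function.Bijective wD := by
    apply wDinj.bijective_of_nat_card_le
    simpa using hcard
  let f : D →* X := fst.comp D.subtype
  let s : D →* Y := snd.comp D.subtype
  have finj : Function.Injective f := by
    rw [injective_iff_map_eq_one]
    intro d hd
    obtain ⟨m, rfl⟩ := wDbij.2 d
    have h1 : word g m = 1 := by rw [← wfst]; exact hd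
    have h2 : word g m = word g (⟨0, by positivity⟩ : Fin (2 ^ n)) := by
      rw [h1]; exact (word_zero g).symm
    have h3 := wgne _ _ h2
    rw [h3]
    apply Subtype.ext
    exact word_zero p
  have sinj : Function.Injective s := by
    rw [injective_iff_map_eq_one]
    intro d hd
    obtain ⟨m, rfl⟩ := wDbij.2 d
    have h1 : word h m = 1 := by rw [← wsnd]; exact hd
    have h2 : (m : ℕ) = 0 := by
      by_contra hne
      exact hY m m.2 hne h1
    apply Subtype.ext
    change word p m = 1
    rw [h2]
    exact word_zero p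
  have frange : f.range = Subgroup.closure (Set.range g) := by
    have : f.range = D.map fst := by
      rw [MonoidHom.range_comp, Subgroup.range_subtype]
    rw [this, hD, MonoidHom.map_closure]
    congr 1
    ext x
    constructor
    · rintro ⟨_, ⟨i, rfl⟩, rfl⟩; exact ⟨i, rfl⟩
    · rintro ⟨i, rfl⟩; exact ⟨_, ⟨i, rfl⟩, rfl⟩
  have srange : s.range = Subgroup.closure (Set.range h) := by
    have : s.range = D.map snd := by
      rw [MonoidHom.range_comp, Subgroup.range_subtype]
    rw [this, hD, MonoidHom.map_closure]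
    congr 1
    ext x
    constructor
    · rintro ⟨_, ⟨i, rfl⟩, rfl⟩; exact ⟨i, rfl⟩
    · rintro ⟨i, rfl⟩; exact ⟨_, ⟨i, rfl⟩, rfl⟩
  have e1 : D ≃* Subgroup.closure (Set.range g) :=
    (MonoidHom.ofInjective finj).trans (MulEquiv.subgroupCongr frange)
  have e2 : D ≃* Subgroup.closure (Set.range h) :=
    (MonoidHom.ofInjective sinj).trans (MulEquiv.subgroupCongr srange)
  refine ⟨⟨e1.symm.trans e2⟩, ?_⟩
  rw [← Nat.card_congr e1.toEquiv, Nat.card_congr (Equiv.ofBijective wD wDbij).symm]
  simp

/-- A `2`-subgroup of the order of a Sylow subgroup is isomorphic to it. -/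
theorem sylow_equiv_of_card {X : Type*} [Group X] [Finite X] (P : Sylow 2 X) (T : Subgroup X)
    (hT : Nat.card T = Nat.card P) (k : ℕ) (hk : Nat.card T = 2 ^ k) :
    Nonempty (↥(P : Subgroup X) ≃* T) := by
  haveI : Fact (Nat.Prime 2) := ⟨Nat.prime_two⟩
  have hp : IsPGroup 2 T := IsPGroup.of_card hk
  obtain ⟨S, hS⟩ := hp.exists_le_sylow
  have hSc : Nat.card S = Nat.card P := Nat.card_congr (Sylow.equiv S P).toEquiv
  have hE : T = (S : Subgroup X) := by
    apply Subgroup.eq_of_le_of_card_ge hS
    rw [hT]
    exact hSc.le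
  exact ⟨(Sylow.equiv P S).trans (MulEquiv.subgroupCongr hE.symm)⟩

end Cfsg.Agent.Lib.PcIso
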